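import Cfsg.Agent.CoprimeAction.Basic
import Cfsg.Agent.CoprimeAction.Frattini
import Cfsg.Agent.RankOneP.Basic
import Cfsg.Agent.ZJ.Replacement
import Cfsg.Agent.BenderUnique.Basic

/-!
2-groups without noncyclic abelian subgroups of order 8 under a coprime action.

* `Bad`, `T4`, `T8`
* `core`: structure of `P = [P, H]` all of whose proper invariant subgroups are good
* `classify`, `good_eq`: a good `Y` with `[Y, H] ≠ 1` is a four-group or a quaternion group of order 8
-/

set_option autoImplicit false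

namespace CfsgLib.MinEightTwo

open scoped commutatorElement
open Subgroup

variable {S : Type*} [Group S] [Finite S]

/-- `R` contains a noncyclic abelian subgroup of order 8. -/
def Bad (R : Subgroup S) : Prop :=
  ∃ A : Subgroup S, A ≤ R ∧ IsMulCommutative ↥A ∧ ¬ IsCyclic ↥A ∧ Nat.card ↥A = 8

theorem Bad.mono {R R' : Subgroup S} (h : Bad R) (hle : R ≤ R') : Bad R' := by
  obtain ⟨A, hA, h1⟩ := h; exact ⟨A, hA.trans hle, h1⟩

/-- Four-groups. -/
structure T4 (W : Subgroup S) : Prop where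
  card : Nat.card W = 4
  comm : ∀ x ∈ W, ∀ y ∈ W, x * y = y * x
  sq : ∀ x ∈ W, x ^ 2 = 1

/-- Quaternion groups of order 8. -/
structure T8 (W : Subgroup S) : Prop where
  card : Nat.card W = 8
  zcard : Nat.card ↥(W ⊓ centralizer (W : Set S)) = 2
  sq : ∀ x ∈ W, x ^ 2 ∈ W ⊓ centralizer (W : Set S)
  inv : ∀ x ∈ W, x ^ 2 = 1 → x ∈ W ⊓ centralizer (W : Set S)

theorem ne_bot_of_card {W : Subgroup S} {n : ℕ} (h : Nat.card W = n) (hn : n ≠ 1) : W ≠ ⊥ := by
  rintro rfl; exact hn (by rw [← h, Subgroup.card_bot])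

theorem eight_le {U : Subgroup S} (hU : IsPGroup 2 U) (h : 4 < Nat.card U) : 8 ≤ Nat.card U := by
  haveI := Fact.mk Nat.prime_two
  obtain ⟨k, hk⟩ := IsPGroup.iff_card.1 hU
  rw [hk] at h ⊢
  rcases Nat.lt_or_ge k 3 with h' | h'
  · interval_cases k <;> simp_all
  · calc 8 = 2 ^ 3 := rfl
      _ ≤ 2 ^ k := Nat.pow_le_pow_right two_pos h'

theorem cop {U H : Subgroup S} (hH : Odd (Nat.card H)) (hU : IsPGroup 2 U) :
    (Nat.card H).Coprime (Nat.card U) := by
  haveI := Fact.mk Nat.prime_two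
  obtain ⟨k, hk⟩ := IsPGroup.iff_card.1 hU
  rw [hk]
  exact (Nat.coprime_two_right.2 hH).pow_right k

theorem solv {U : Subgroup S} (hU : IsPGroup 2 U) : Group.IsSolvable U := by
  haveI := Fact.mk Nat.prime_two
  haveI := hU.isNilpotent
  infer_instance

theorem mem_centralizer_singleton {c x : S} : x ∈ centralizer ({c} : Set S) ↔ c * x = x * c := by
  rw [mem_centralizer_iff]
  exact ⟨fun h => h c rfl, fun h y hy => by rw [Set.mem_singleton_iff] at hy; subst hy; exact h⟩

theorem coset_two {Z U : Subgroup S} (hZU : Z ≤ U) (hc : Nat.card U = 2 * Nat.card Z) {a b : S}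
    (ha : a ∈ U) (haZ : a ∉ Z) (hb : b ∈ U) (hbZ : b ∉ Z) : a⁻¹ * b ∈ Z := by
  have hi : (Z.subgroupOf U).index = 2 := by
    have h1 := Subgroup.card_mul_index (Z.subgroupOf U)
    rw [Nat.card_congr (Subgroup.subgroupOfEquivOfLe hZU).toEquiv, hc, mul_comm 2] at h1
    exact Nat.eq_of_mul_eq_mul_left Nat.card_pos h1
  have h := (Subgroup.mul_mem_iff_of_index_two hi (a := ⟨a⁻¹, inv_mem ha⟩) (b := ⟨b, hb⟩)).2
    (by simp [Subgroup.mem_subgroupOf, haZ, hbZ])
  exact h

/-- Two involutions in a commutative 2-group of order at least 8 give a bad subgroup. -/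
theorem bad_of_comm {M : Subgroup S} (hM : IsPGroup 2 M) (hc : ∀ x ∈ M, ∀ y ∈ M, x * y = y * x)
    (h8 : 8 ≤ Nat.card M) {u v : S} (hu : u ∈ M) (hv : v ∈ M) (huv : u ≠ v) (hu1 : u ≠ 1) (hv1 : v ≠ 1)
    (hu2 : u ^ 2 = 1) (hv2 : v ^ 2 = 1) : Bad M := by
  classical
  haveI := Fact.mk Nat.prime_two
  have ou : orderOf u = 2 := orderOf_eq_prime hu2 hu1
  have ov : orderOf v = 2 := orderOf_eq_prime hv2 hv1
  set K := Subgroup.zpowers u ⊔ Subgroup.zpowers v with hK
  have hKM : K ≤ M := sup_le (zpowers_le.2 hu) (zpowers_le.2 hv)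
  have hinf : Subgroup.zpowers u ⊓ Subgroup.zpowers v = ⊥ := by
    rw [eq_bot_iff]
    rintro x ⟨h1, h2⟩
    rw [Subgroup.mem_bot]
    by_contra hx
    have e1 := (mem_zpowers_iff_mem_range_orderOf (x := u)).1 h1
    have e2 := (mem_zpowers_iff_mem_range_orderOf (x := v)).1 h2
    simp only [Finset.mem_image, Finset.mem_range, ou, ov] at e1 e2
    obtain ⟨i, hi, rfl⟩ := e1
    obtain ⟨j, hj, e⟩ := e2
    interval_cases i <;> interval_cases j <;> simp_all
  have hnorm : Subgroup.zpowers u ≤ normalizer (Subgroup.zpowers v : Set S) := by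
    refine le_trans ?_ (centralizer_le_normalizer _)
    rw [le_centralizer_iff]
    intro y hy x hx
    exact hc x (zpowers_le.2 hu hx) y (zpowers_le.2 hv hy)
  have hK4 : Nat.card K = 4 := by
    have h := CfsgLib.ZJ.card_sup_mul_card_inf_of_le_normalizer hnorm
    rw [hinf, Subgroup.card_bot, mul_one, Nat.card_zpowers, Nat.card_zpowers, ou, ov] at h
    exact h
  obtain ⟨k, hk⟩ := IsPGroup.iff_card.1 hM
  have hk3 : 3 ≤ k := by
    by_contra h; rw [hk] at h8; interval_cases k <;> omega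
  obtain ⟨A, hA, hKA⟩ := Sylow.exists_subgroup_card_pow_prime_le (G := M) 2 (n := 2) (m := 3)
    (by rw [hk]; exact pow_dvd_pow 2 hk3) (K.subgroupOf M)
    (by rw [Nat.card_congr (Subgroup.subgroupOfEquivOfLe hKM).toEquiv, hK4]; rfl) (by norm_num)
  refine ⟨A.map M.subtype, map_subtype_le A, ⟨⟨?_⟩⟩, ?_, ?_⟩
  · rintro ⟨x, hx⟩ ⟨y, hy⟩
    exact Subtype.ext (hc x (map_subtype_le A hx) y (map_subtype_le A hy))
  · intro hcyc
    have hm : ∀ w ∈ K, w ∈ A.map M.subtype := fun w hw =>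
      ⟨⟨w, hKM hw⟩, hKA (Subgroup.mem_subgroupOf.2 hw), rfl⟩
    have h1 := hm u (mem_sup_left (mem_zpowers u))
    have h2 := hm v (mem_sup_right (mem_zpowers v))
    have h3 := CfsgLib.RankOneP.zpowers_eq_of_orderOf_eq (a := (⟨u, h1⟩ : ↥(A.map M.subtype))) (b := ⟨v, h2⟩)
      (by rw [Subgroup.orderOf_mk, Subgroup.orderOf_mk, ou, ov])
    have h4 : v ∈ Subgroup.zpowers u := by
      have h5 := mem_zpowers (⟨v, h2⟩ : ↥(A.map M.subtype))
      rw [← h3, mem_zpowers_iff] at h5
      obtain ⟨k, hk⟩ := h5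
      exact ⟨k, congrArg Subtype.val hk⟩
    exact hv1 ((Subgroup.mem_bot).1 (hinf.le ⟨h4, mem_zpowers v⟩))
  · rw [Subgroup.card_map_of_injective M.subtype_injective, hA]; rfl

/-- A noncyclic commutative 2-group has two involutions. -/
theorem two_involutions {M : Subgroup S} (hM : IsPGroup 2 M) (hc : ∀ x ∈ M, ∀ y ∈ M, x * y = y * x)
    (hnc : ¬ IsCyclic M) : ∃ u ∈ M, ∃ v ∈ M, u ≠ v ∧ u ≠ 1 ∧ v ≠ 1 ∧ u ^ 2 = 1 ∧ v ^ 2 = 1 := by
  haveI := Fact.mk Nat.prime_two
  have h : ¬ CfsgLib.RankOneP.UniqueOrderP 2 M := fun hu => hnc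
    (CfsgLib.RankOneP.isCyclic_of_commute hM hu fun x y => Subtype.ext (hc x x.2 y y.2))
  simp only [CfsgLib.RankOneP.UniqueOrderP] at h
  push Not at h
  obtain ⟨x, y, hx, hy, hx1, hxy⟩ := h
  refine ⟨x, x.2, y, y.2, fun e => hxy (Subtype.ext e ▸ mem_zpowers x), fun e => hx1 (Subtype.ext e),
    fun e => hxy ((Subtype.ext e : y = 1) ▸ one_mem _), ?_, ?_⟩
  · have := congrArg Subtype.val hx; simpa using this
  · have := congrArg Subtype.val hy; simpa using this

theorem sup_zpowers_comm {M : Subgroup S} {c : S} (hM : ∀ x ∈ M, ∀ y ∈ M, x * y = y * x)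
    (hc : c ∈ centralizer (M : Set S)) :
    ∀ x ∈ M ⊔ Subgroup.zpowers c, ∀ y ∈ M ⊔ Subgroup.zpowers c, x * y = y * x := by
  have h : IsMulCommutative ↥(Subgroup.closure ((M : Set S) ∪ {c})) := by
    refine Subgroup.isMulCommutative_closure ?_
    rintro x (hx | hx) y (hy | hy)
    · exact hM x hx y hy
    · rw [Set.mem_singleton_iff] at hy; subst hy; exact mem_centralizer_iff.1 hc x hx
    · rw [Set.mem_singleton_iff] at hx; subst hx; exact (mem_centralizer_iff.1 hc y hy).symm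
    · rw [Set.mem_singleton_iff] at hx hy; subst hx; subst hy; rfl
  have e : Subgroup.closure ((M : Set S) ∪ {c}) = M ⊔ Subgroup.zpowers c := by
    rw [Subgroup.closure_union, Subgroup.closure_eq, ← Subgroup.zpowers_eq_closure]
  rw [e] at h
  exact fun x hx y hy => congrArg Subtype.val (h.is_comm.comm (⟨x, hx⟩ : ↥(M ⊔ Subgroup.zpowers c)) ⟨y, hy⟩)

theorem card_lt_sup {M : Subgroup S} {c : S} (hc : c ∉ M) :
    Nat.card M < Nat.card ↥(M ⊔ Subgroup.zpowers c) := by
  refine Nat.lt_of_le_of_ne (Nat.le_of_dvd Nat.card_pos (card_dvd_of_le le_sup_left)) fun h => hc ?_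
  have := Subgroup.eq_of_le_of_card_ge (le_sup_left : M ≤ M ⊔ Subgroup.zpowers c) h.ge
  exact this.symm ▸ mem_sup_right (mem_zpowers c)

theorem bad_of_central_t4 {W : Subgroup S} (hW : T4 W) {c : S} (hc : c ∈ centralizer (W : Set S)) (hcW : c ∉ W)
    (hp : IsPGroup 2 ↥(W ⊔ Subgroup.zpowers c)) : Bad (W ⊔ Subgroup.zpowers c) := by
  have hnc : ¬ IsCyclic W := by
    intro h
    obtain ⟨g, hg⟩ := IsCyclic.exists_ofOrder_eq_natCard (α := W)
    rw [hW.card] at hg
    have h2 : g ^ 2 = 1 := Subtype.ext (by simpa using hW.sq g g.2)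
    have := orderOf_dvd_of_pow_eq_one h2
    rw [hg] at this
    norm_num at this
  obtain ⟨u, hu, v, hv, huv, hu1, hv1, hu2, hv2⟩ := two_involutions (hp.to_le le_sup_left) hW.comm hnc
  exact bad_of_comm hp (sup_zpowers_comm hW.comm hc) (eight_le hp (by have := card_lt_sup hcW; rw [hW.card] at this; exact this))
    (mem_sup_left hu) (mem_sup_left hv) huv hu1 hv1 hu2 hv2

theorem T8.exists_four {W : Subgroup S} (hW : T8 W) :
    ∃ i ∈ W, i ∉ W ⊓ centralizer (W : Set S) ∧ orderOf i = 4 := by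
  haveI := Fact.mk Nat.prime_two
  obtain ⟨i, hi, hiZ⟩ := SetLike.exists_of_lt (show W ⊓ centralizer (W : Set S) < W from
    lt_of_le_of_ne inf_le_left fun h => by
      have := hW.zcard; rw [h, hW.card] at this; norm_num at this)
  refine ⟨i, hi, hiZ, orderOf_eq_prime_pow (p := 2) (n := 1) ?_ ?_⟩
  · rw [pow_one]; exact fun h => hiZ (hW.inv i hi h)
  · have h := Subgroup.orderOf_dvd_natCard _ (hW.sq i hi)
    rw [hW.zcard, orderOf_dvd_iff_pow_eq_one, ← pow_mul] at h
    simpa using h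

theorem bad_of_central_t8 {W : Subgroup S} (hW : T8 W) {c : S} (hc : c ∈ centralizer (W : Set S)) (hcW : c ∉ W)
    (hp : IsPGroup 2 ↥(W ⊔ Subgroup.zpowers c)) : Bad (W ⊔ Subgroup.zpowers c) := by
  haveI := Fact.mk Nat.prime_two
  obtain ⟨i, hi, hiZ, oi⟩ := hW.exists_four
  set M := Subgroup.zpowers i ⊔ Subgroup.zpowers c with hMdef
  have hMle : M ≤ W ⊔ Subgroup.zpowers c := sup_le_sup_right (zpowers_le.2 hi) _
  have hMp := hp.to_le hMle
  have hcomm : ∀ x ∈ M, ∀ y ∈ M, x * y = y * x := by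
    refine sup_zpowers_comm (fun x hx y hy => ?_) (fun y hy => mem_centralizer_iff.1 hc y (zpowers_le.2 hi hy))
    obtain ⟨a, rfl⟩ := hx; obtain ⟨b, rfl⟩ := hy; exact zpow_mul_comm i a b
  have hnc : ¬ IsCyclic M := by
    intro hcyc
    have hiM : i ∈ M := mem_sup_left (mem_zpowers i)
    have hcM : c ∈ M := mem_sup_right (mem_zpowers c)
    obtain ⟨b, hb⟩ := IsPGroup.iff_orderOf.1 hMp ⟨c, hcM⟩
    rcases Nat.lt_or_ge b 2 with hb2 | hb2
    · -- `c ∈ ⟨i⟩`
      have h := CfsgLib.RankOneP.zpowers_eq_of_orderOf_eq (a := (⟨i, hiM⟩ : M) ^ 2 ^ (2 - b)) (b := ⟨c, hcM⟩)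
        (by rw [orderOf_pow' _ (pow_ne_zero _ two_ne_zero), hb, Subgroup.orderOf_mk, oi]
            interval_cases b <;> rfl)
      have h5 := mem_zpowers (⟨c, hcM⟩ : M)
      rw [← h, mem_zpowers_iff] at h5
      obtain ⟨k, hk⟩ := h5
      refine hcW ?_
      have := congrArg Subtype.val hk
      simp only [Subgroup.coe_zpow, Subgroup.coe_pow] at this
      rw [← this]
      exact zpow_mem (pow_mem hi _) k
    · have h := CfsgLib.RankOneP.zpowers_eq_of_orderOf_eq (a := (⟨c, hcM⟩ : M) ^ 2 ^ (b - 2)) (b := ⟨i, hiM⟩)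
        (by rw [orderOf_pow' _ (pow_ne_zero _ two_ne_zero), hb, Subgroup.orderOf_mk, oi,
            Nat.gcd_eq_right (pow_dvd_pow 2 (Nat.sub_le b 2)), Nat.pow_div (Nat.sub_le b 2) two_pos,
            show b - (b - 2) = 2 by omega]; rfl)
      have h5 := mem_zpowers (⟨i, hiM⟩ : M)
      rw [← h, mem_zpowers_iff] at h5
      obtain ⟨k, hk⟩ := h5
      refine hiZ ⟨hi, mem_centralizer_iff.2 fun w hw => ?_⟩
      have := congrArg Subtype.val hk
      simp only [Subgroup.coe_zpow, Subgroup.coe_pow] at this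
      rw [← this]
      exact (((show Commute w c from mem_centralizer_iff.1 hc w hw).pow_right _).zpow_right k)
  obtain ⟨u, hu, v, hv, huv, hu1, hv1, hu2, hv2⟩ := two_involutions hMp hcomm hnc
  refine (bad_of_comm hMp hcomm (eight_le hMp ?_) hu hv huv hu1 hv1 hu2 hv2).mono hMle
  have hci : c ∉ Subgroup.zpowers i := fun h => hcW (zpowers_le.2 hi h)
  have := card_lt_sup hci
  rwa [Nat.card_zpowers, oi] at this

/-- For `P = [P,H]`, fixed points lie in every normal subgroup with abelian quotient. -/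
theorem fixed_le {P H N : Subgroup S} (hH : Odd (Nat.card H)) (hP : IsPGroup 2 P)
    (hHP : H ≤ normalizer (P : Set S)) (hPH : ⁅P, H⁆ = P) (hPN : P ≤ normalizer (N : Set S))
    (hD : ⁅P, P⁆ ≤ N) : P ⊓ centralizer (H : Set S) ≤ N := by
  classical
  haveI : (N.subgroupOf P).Normal := normal_subgroupOf_of_le_normalizer hPN
  haveI : Fintype H := Fintype.ofFinite _
  letI : CommGroup (P ⧸ N.subgroupOf P) :=
    { (inferInstance : Group (P ⧸ N.subgroupOf P)) with
      mul_comm := fun a b => by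
        obtain ⟨x, rfl⟩ := QuotientGroup.mk'_surjective _ a
        obtain ⟨y, rfl⟩ := QuotientGroup.mk'_surjective _ b
        rw [← map_mul, ← map_mul, QuotientGroup.mk'_apply, QuotientGroup.mk'_apply, QuotientGroup.eq,
          Subgroup.mem_subgroupOf]
        have e : (((x * y)⁻¹ * (y * x) : P) : S) = ⁅((y : S))⁻¹, ((x : S))⁻¹⁆ := by
          simp [commutatorElement_def, mul_assoc]
        rw [e]
        exact hD (commutator_mem_commutator (inv_mem y.2) (inv_mem x.2)) }
  let c : H → P →* P := fun h =>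
    { toFun := fun v => ⟨h * v * (h : S)⁻¹, CfsgLib.CoprimeAction.conj_mem hHP h.2 v.2⟩
      map_one' := Subtype.ext (by simp)
      map_mul' := fun v w => Subtype.ext (by simp [mul_assoc]) }
  let f : P →* P ⧸ N.subgroupOf P := ∏ h : H, (QuotientGroup.mk' _).comp (c h)
  have hf : ∀ v : P, f v = ∏ h : H, QuotientGroup.mk' _ (c h v) := fun v => MonoidHom.finsetProd_apply _ _ _
  have hinv : ∀ (b : H) (v : P), f (c b v) = f v := by
    intro b v
    rw [hf, hf]
    refine Fintype.prod_equiv (Equiv.mulRight b) _ _ fun a => ?_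
    congr 1
    exact Subtype.ext (by simp [c, mul_assoc])
  have hker : ∀ v : P, f v = 1 := by
    have key : ⁅P, H⁆ ≤ f.ker.map P.subtype := by
      rw [Subgroup.commutator_le]
      intro v hv a ha
      refine ⟨⟨v, hv⟩ * (c ⟨a, ha⟩ ⟨v, hv⟩)⁻¹, ?_, ?_⟩
      · rw [SetLike.mem_coe, MonoidHom.mem_ker, map_mul, map_inv, hinv, mul_inv_cancel]
      · simp [c, commutatorElement_def, mul_assoc]
    intro v
    obtain ⟨w, hw, he⟩ := key (hPH.symm.le v.2)
    rwa [← Subtype.ext (a1 := w) (a2 := v) he]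
  intro x hx
  obtain ⟨hxP, hxH⟩ := Subgroup.mem_inf.1 hx
  have h1 := hker ⟨x, hxP⟩
  have h2 : ∀ a : H, c a ⟨x, hxP⟩ = ⟨x, hxP⟩ := fun a => Subtype.ext (by
    show (a : S) * x * (a : S)⁻¹ = x
    rw [Subgroup.mem_centralizer_iff.1 hxH a a.2, mul_inv_cancel_right])
  rw [hf, Finset.prod_congr rfl (fun a _ => congrArg _ (h2 a)), Finset.prod_const, Finset.card_univ,
    ← Nat.card_eq_fintype_card] at h1
  have h3 : orderOf (QuotientGroup.mk' (N.subgroupOf P) ⟨x, hxP⟩) = 1 := by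
    refine Nat.eq_one_of_dvd_coprimes (cop hH hP) (orderOf_dvd_of_pow_eq_one h1) ?_
    exact (orderOf_map_dvd _ _).trans (orderOf_dvd_natCard _)
  have h4 := orderOf_eq_one_iff.1 h3
  rw [QuotientGroup.mk'_apply, QuotientGroup.eq_one_iff] at h4
  exact h4

theorem centralizes_card_two {U H : Subgroup S} (hHU : H ≤ normalizer (U : Set S))
    (hc : Nat.card U ≤ 2) : H ≤ centralizer (U : Set S) := by
  intro h hh
  rw [mem_centralizer_iff]
  intro z hz
  by_contra hne
  have hz1 : z ≠ 1 := fun e => hne (by rw [e, one_mul, mul_one])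
  have hmem : h * z * h⁻¹ ∈ U := CfsgLib.CoprimeAction.conj_mem hHU hh hz
  have hne1 : h * z * h⁻¹ ≠ 1 := fun e => hz1 (by simpa using e)
  have hnez : h * z * h⁻¹ ≠ z := fun e => hne (mul_inv_eq_iff_eq_mul.1 e).symm
  classical
  haveI := Fintype.ofFinite U
  have h3 : 3 ≤ Nat.card U := by
    rw [Nat.card_eq_fintype_card]
    calc 3 = ({1, ⟨z, hz⟩, ⟨_, hmem⟩} : Finset U).card := by
          rw [Finset.card_insert_of_notMem, Finset.card_pair]
          · simpa [Subtype.ext_iff] using hnez.symm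
          · simp [Subtype.ext_iff, hz1.symm, hne1.symm]
      _ ≤ Fintype.card U := Finset.card_le_univ _
  omega

/-- An invariant overgroup of index two of a centralized subgroup is centralized. -/
theorem centralizes_index_two {Z U H : Subgroup S} (hH : Odd (Nat.card H)) (hU : IsPGroup 2 U) (hZU : Z ≤ U)
    (hc : Nat.card U = 2 * Nat.card Z) (hHU : H ≤ normalizer (U : Set S)) (hHZ : H ≤ centralizer (Z : Set S)) :
    H ≤ centralizer (U : Set S) := by
  refine CfsgLib.CoprimeAction.le_centralizer_of_chain (cop hH (hU.to_le hZU)) hHZ ?_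
  rw [commutator_le]
  intro u hu h hh
  rw [commutatorElement_def, show u * h * u⁻¹ * h⁻¹ = (u⁻¹)⁻¹ * (h * u⁻¹ * h⁻¹) by group]
  by_cases huZ : u⁻¹ ∈ Z
  · have := mem_centralizer_iff.1 (hHZ hh) _ huZ
    rw [← this]; simpa using one_mem Z
  refine coset_two hZU hc (inv_mem hu) huZ (CfsgLib.CoprimeAction.conj_mem hHU hh (inv_mem hu)) fun h1 => huZ ?_
  have h2 := mem_centralizer_iff.1 (hHZ (inv_mem hh)) _ h1
  have e : u⁻¹ = h * u⁻¹ * h⁻¹ := by
    have h3 : h⁻¹ * (h * u⁻¹ * h⁻¹) * h = h * u⁻¹ * h⁻¹ := by rw [← h2, mul_assoc, inv_mul_cancel, mul_one]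
    simpa [mul_assoc] using h3
  exact e ▸ h1

theorem eq_bot_of_commutator_eq {W C : Subgroup S} (hWC : IsPGroup 2 ↥(W ⊔ C)) (h : ⁅W, C⁆ = W) : W = ⊥ := by
  haveI := Fact.mk Nat.prime_two
  haveI := hWC.isNilpotent
  obtain ⟨n, hn⟩ := Subgroup.nilpotent_iff_lowerCentralSeries.1 (inferInstance : Group.IsNilpotent ↥(W ⊔ C))
  have e : ⁅W.subgroupOf (W ⊔ C), C.subgroupOf (W ⊔ C)⁆ = W.subgroupOf (W ⊔ C) := by
    refine Subgroup.map_injective (W ⊔ C).subtype_injective ?_
    rw [map_commutator, map_subgroupOf_eq_of_le le_sup_left, map_subgroupOf_eq_of_le le_sup_right, h]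
  have key : ∀ k, W.subgroupOf (W ⊔ C) ≤ (⊤ : Subgroup ↥(W ⊔ C)).lowerCentralSeries k := by
    intro k
    induction k with
    | zero => simp
    | succ k ih =>
      rw [← e, Subgroup.lowerCentralSeries_succ]
      exact commutator_mono ih le_top
  have h1 := key n
  rw [hn, le_bot_iff, subgroupOf_eq_bot] at h1
  exact h1.eq_bot_of_le le_sup_left

/-- Data shared by `T4` and `T8`. -/
theorem exists_data {W H : Subgroup S} (hHW : H ≤ normalizer (W : Set S)) (h : T4 W ∨ T8 W) :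
    ∃ Z : Subgroup S, Z ≤ W ∧ (∀ z ∈ Z, ∀ w ∈ W, z * w = w * z) ∧ ⁅W, W⁆ = Z ∧
      Nat.card W = 4 * Nat.card Z ∧ H ≤ centralizer (Z : Set S) := by
  rcases h with h | h
  · refine ⟨⊥, bot_le, fun z hz w _ => ?_, ?_, ?_, fun x _ => ?_⟩
    · rw [mem_bot.1 hz, one_mul, mul_one]
    · rw [commutator_eq_bot_iff_le_centralizer]
      exact fun x hx => mem_centralizer_iff.2 fun y hy => h.comm y hy x hx
    · rw [h.card, Subgroup.card_bot]
    · exact mem_centralizer_iff.2 fun z hz => by rw [mem_bot.1 hz, one_mul, mul_one]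
  · refine ⟨W ⊓ centralizer (W : Set S), inf_le_left, fun z hz w hw => (mem_centralizer_iff.1 hz.2 w hw).symm, ?_,
      by rw [h.card, h.zcard], ?_⟩
    · have hle : ⁅W, W⁆ ≤ W ⊓ centralizer (W : Set S) := by
        haveI : ((W ⊓ centralizer (W : Set S)).subgroupOf W).Normal := by
          refine ⟨fun z hz g => ?_⟩
          rw [mem_subgroupOf] at hz ⊢
          have := mem_centralizer_iff.1 hz.2 g g.2
          rw [coe_mul, coe_mul, coe_inv, this, mul_inv_cancel_right]
          exact hz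
        have hc : commutator W ≤ (W ⊓ centralizer (W : Set S)).subgroupOf W := by
          refine Subgroup.Normal.quotient_commutative_iff_commutator_le.1 ⟨⟨fun a b => ?_⟩⟩
          have hsq : ∀ q : W ⧸ (W ⊓ centralizer (W : Set S)).subgroupOf W, q⁻¹ = q := by
            intro q
            obtain ⟨x, rfl⟩ := QuotientGroup.mk'_surjective _ q
            rw [inv_eq_iff_mul_eq_one, ← map_mul, QuotientGroup.mk'_apply, QuotientGroup.eq_one_iff,
              mem_subgroupOf, coe_mul, ← pow_two]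
            exact h.sq x x.2
          calc a * b = (a * b)⁻¹ := (hsq _).symm
            _ = b * a := by rw [mul_inv_rev, hsq, hsq]
        have := Subgroup.map_mono (f := W.subtype) hc
        rwa [map_subgroupOf_eq_of_le inf_le_left, _root_.commutator_def, map_commutator, ← MonoidHom.range_eq_map,
          range_subtype] at this
      refine eq_of_le_of_card_ge hle ?_
      rw [h.zcard]
      by_contra hlt
      push Not at hlt
      have : ⁅W, W⁆ = ⊥ := eq_bot_of_card_le _ (Nat.le_of_lt_succ hlt)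
      rw [commutator_eq_bot_iff_le_centralizer] at this
      have h2 : W ⊓ centralizer (W : Set S) = W := inf_eq_left.2 this
      have h3 := h.zcard
      rw [h2, h.card] at h3
      norm_num at h3
    · refine centralizes_card_two ?_ h.zcard.le
      intro x hx
      rw [Subgroup.mem_normalizer_iff]
      have key : ∀ x ∈ H, ∀ z ∈ W ⊓ centralizer (W : Set S), x * z * x⁻¹ ∈ W ⊓ centralizer (W : Set S) := by
        intro x hx z hz
        refine ⟨CfsgLib.CoprimeAction.conj_mem hHW hx hz.1, mem_centralizer_iff.2 fun w hw => ?_⟩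
        have h1 := mem_centralizer_iff.1 hz.2 _ (CfsgLib.CoprimeAction.conj_mem hHW (inv_mem hx) hw)
        calc w * (x * z * x⁻¹) = x * ((x⁻¹ * w * x⁻¹⁻¹) * z) * x⁻¹ := by group
          _ = x * (z * (x⁻¹ * w * x⁻¹⁻¹)) * x⁻¹ := by rw [h1]
          _ = x * z * x⁻¹ * w := by group
      exact fun z => ⟨key x hx z, fun hz => by simpa [mul_assoc] using key x⁻¹ (inv_mem hx) _ hz⟩

/-- A 2-group normalizing a minimal type acts trivially modulo its centre. -/
theorem commutator_le_center {W C H Z : Subgroup S} (hH : Odd (Nat.card H)) (hHW : H ≤ normalizer (W : Set S))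
    (hWH : ⁅W, H⁆ = W) (hZW : Z ≤ W) (hZc : ∀ z ∈ Z, ∀ w ∈ W, z * w = w * z) (hZ : ⁅W, W⁆ = Z)
    (hcard : Nat.card W = 4 * Nat.card Z) (hHZ : H ≤ centralizer (Z : Set S))
    (hWC : IsPGroup 2 ↥(W ⊔ C)) (hCW : C ≤ normalizer (W : Set S)) (hHC : H ≤ normalizer (C : Set S)) :
    ⁅W, C⁆ ≤ Z := by
  have hle : ⁅W, C⁆ ≤ W := CfsgLib.CoprimeAction.commutator_le_of_normalizer hCW
  set W₁ := ⁅W, C⁆ ⊔ Z with hW₁
  have hW1W : W₁ ≤ W := sup_le hle hZW
  have hWZ : W ≤ normalizer (Z : Set S) := fun w hw => by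
    rw [Subgroup.mem_normalizer_iff]
    intro z
    constructor
    · intro hz; rw [(hZc z hz w hw).symm, mul_inv_cancel_right]; exact hz
    · intro hz
      have := hZc _ hz w hw
      have e : z = w * z * w⁻¹ := by
        have h1 : w⁻¹ * (w * z * w⁻¹ * w) = w⁻¹ * (w * (w * z * w⁻¹)) := by rw [this]
        simpa [mul_assoc] using h1
      exact e ▸ hz
  have hne : W₁ ≠ W := by
    intro he
    have hWp : IsPGroup 2 W := hWC.to_le le_sup_left
    have h0 : ⁅W, C⁆ = W := by
      refine le_antisymm hle ?_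
      have hZle : Z ≤ ⁅W, C⁆ := by
        rw [← hZ]
        rw [commutator_le]
        intro a ha b hb
        rw [← he, hW₁] at ha hb
        have hn : Z ≤ normalizer ((⁅W, C⁆ : Subgroup S) : Set S) :=
          hZW.trans CfsgLib.CoprimeAction.self_le_normalizer_commutator
        rw [← SetLike.mem_coe, Subgroup.coe_mul_of_right_le_normalizer_left _ _ hn] at ha hb
        obtain ⟨t, ht, z, hz, rfl⟩ := ha
        obtain ⟨t', ht', z', hz', rfl⟩ := hb
        have e1 : Commute z (t' * z') := hZc z hz _ (mul_mem (hle ht') (hZW hz'))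
        have e2 : Commute z' t := hZc z' hz' _ (hle ht)
        have : ⁅t * z, t' * z'⁆ = ⁅t, t'⁆ := by
          simp only [commutatorElement_def]
          calc t * z * (t' * z') * (t * z)⁻¹ * (t' * z')⁻¹
              = t * (z * (t' * z')) * z⁻¹ * t⁻¹ * z'⁻¹ * t'⁻¹ := by group
            _ = t * ((t' * z') * z) * z⁻¹ * t⁻¹ * z'⁻¹ * t'⁻¹ := by rw [e1.eq]
            _ = t * t' * (z' * t⁻¹) * z'⁻¹ * t'⁻¹ := by group
            _ = t * t' * (t⁻¹ * z') * z'⁻¹ * t'⁻¹ := by rw [e2.inv_right.eq]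
            _ = t * t' * t⁻¹ * t'⁻¹ := by group
        rw [this]
        exact (commutator_le.2 fun a ha b hb => by
          rw [commutatorElement_def]
          exact mul_mem (mul_mem (mul_mem ha hb) (inv_mem ha)) (inv_mem hb) : ⁅⁅W, C⁆, ⁅W, C⁆⁆ ≤ ⁅W, C⁆)
          (commutator_mem_commutator ht ht')
      exact he.symm.le.trans (sup_le le_rfl hZle)
    have := eq_bot_of_commutator_eq hWC h0
    rw [this, Subgroup.card_bot] at hcard
    omega
  have hHW1 : H ≤ normalizer (W₁ : Set S) := by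
    intro h hh
    rw [mem_normalizer_iff_map_conj_eq, hW₁, Subgroup.map_sup, map_commutator,
      mem_normalizer_iff_map_conj_eq.1 (hHW hh), mem_normalizer_iff_map_conj_eq.1 (hHC hh),
      mem_normalizer_iff_map_conj_eq.1 (centralizer_le_normalizer _ (hHZ hh))]
  by_contra hnot
  have hZ1 : Z < W₁ := lt_of_le_of_ne le_sup_right fun h => hnot (le_sup_left.trans h.symm.le)
  have hd1 : Nat.card Z ∣ Nat.card W₁ := card_dvd_of_le hZ1.le
  have hd2 : Nat.card W₁ ∣ Nat.card W := card_dvd_of_le hW1W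
  obtain ⟨m, hm⟩ := hd1
  rw [hm, hcard, mul_comm 4] at hd2
  have hm4 := Nat.dvd_of_mul_dvd_mul_left Nat.card_pos hd2
  have hm1 : m ≠ 1 := fun e => hZ1.ne (eq_of_le_of_card_ge hZ1.le (by rw [hm, e, mul_one]))
  have hm4' : m ≠ 4 := fun e => hne (eq_of_le_of_card_ge hW1W (by rw [hm, e, hcard, mul_comm]))
  have hm2 : m = 2 := by
    have := Nat.le_of_dvd (by norm_num) hm4
    interval_cases m <;> simp_all
  have hcent := centralizes_index_two hH (hWC.to_le (hW1W.trans le_sup_left)) hZ1.le (by rw [hm, hm2, mul_comm]) hHW1 hHZ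
  refine hnot (le_trans ?_ (fixed_le hH (hWC.to_le le_sup_left) hHW hWH hWZ hZ.le))
  exact le_inf hle (fun x hx => mem_centralizer_iff.2 fun h hh =>
    (mem_centralizer_iff.1 (hcent hh) x (mem_sup_left hx)).symm)

/-- A 2-group centralized by `H` and normalizing a minimal type centralizes it. -/
theorem le_centralizer_type {W C H : Subgroup S} (hH : Odd (Nat.card H)) (hHW : H ≤ normalizer (W : Set S))
    (hWH : ⁅W, H⁆ = W) (hT : T4 W ∨ T8 W) (hWC : IsPGroup 2 ↥(W ⊔ C)) (hCW : C ≤ normalizer (W : Set S))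
    (hCH : C ≤ centralizer (H : Set S)) : C ≤ centralizer (W : Set S) := by
  obtain ⟨Z, hZW, hZc, hZ, hcard, hHZ⟩ := exists_data hHW hT
  have hHC : H ≤ normalizer (C : Set S) :=
    (le_centralizer_iff.1 hCH).trans (centralizer_le_normalizer _)
  have hle := commutator_le_center hH hHW hWH hZW hZc hZ hcard hHZ hWC hCW hHC
  intro c hc
  rw [mem_centralizer_iff]
  intro w hw
  have key : ⁅W, H⁆ ≤ centralizer ({c} : Set S) := by
    rw [commutator_le]
    intro g hg h hh
    rw [mem_centralizer_singleton]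
    have hch : Commute h c := (mem_centralizer_iff.1 (hCH hc) h hh)
    set z := ⁅g⁻¹, c⁆ with hz
    have hzZ : z ∈ Z := hle (commutator_mem_commutator (inv_mem hg) hc)
    have hzh : Commute h z := (mem_centralizer_iff.1 (hHZ hh) z hzZ).symm
    have hzg : Commute z g := hZc z hzZ g hg
    -- `c` and `h * g⁻¹ * h⁻¹`
    have h1 : (h * g⁻¹ * h⁻¹) * c = z * c * (h * g⁻¹ * h⁻¹) := by
      calc (h * g⁻¹ * h⁻¹) * c = h * (g⁻¹ * (h⁻¹ * c)) := by group
        _ = h * (g⁻¹ * (c * h⁻¹)) := by rw [hch.inv_left.eq]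
        _ = h * z * c * g⁻¹ * h⁻¹ := by rw [hz, commutatorElement_def]; group
        _ = z * (h * c) * g⁻¹ * h⁻¹ := by rw [hzh.eq]; group
        _ = z * c * (h * g⁻¹ * h⁻¹) := by rw [hch.eq]; group
    calc c * ⁅g, h⁆ = c * g * (h * g⁻¹ * h⁻¹) := by rw [commutatorElement_def]; group
      _ = g * (z * c) * (h * g⁻¹ * h⁻¹) := by rw [hz, commutatorElement_def]; group
      _ = g * ((h * g⁻¹ * h⁻¹) * c) := by rw [h1]; group
      _ = ⁅g, h⁆ * c := by rw [commutatorElement_def]; group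
  exact (mem_centralizer_singleton.1 (key (hWH.symm.le hw))).symm

end CfsgLib.MinEightTwo
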