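import Cfsg.Agent.MinEightTwo.Basic

/-!
The structure of `P = [P, H]` with all proper invariant subgroups good.
-/

set_option autoImplicit false

namespace CfsgLib.MinEightTwo

open scoped commutatorElement
open Subgroup

variable {S : Type*} [Group S] [Finite S]

/-- A good `Y` on which `H` acts nontrivially is of minimal type. -/
theorem good_eq {Y H : Subgroup S} (hH : Odd (Nat.card H)) (hY : IsPGroup 2 Y)
    (hHY : H ≤ normalizer (Y : Set S)) (hgood : ¬ Bad Y) (hne : ⁅Y, H⁆ ≠ ⊥)
    (hcls : ∀ W : Subgroup S, W ≤ Y → H ≤ normalizer (W : Set S) → ⁅W, H⁆ = W → W ≠ ⊥ → ¬ Bad W → T4 W ∨ T8 W) :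
    ⁅Y, H⁆ = Y ∧ (T4 Y ∨ T8 Y) := by
  set W := ⁅Y, H⁆ with hW
  have hWY : W ≤ Y := CfsgLib.CoprimeAction.commutator_le_of_normalizer hHY
  have hHW := CfsgLib.CoprimeAction.le_normalizer_commutator hHY
  have hWH : ⁅W, H⁆ = W :=
    CfsgLib.CoprimeAction.commutator_commutator_eq hHY (cop hH hY) (Or.inr (solv hY))
  have hT := hcls W hWY hHW hWH hne (fun h => hgood (h.mono hWY))
  set C := Y ⊓ centralizer (H : Set S) with hC
  have hWC : IsPGroup 2 ↥(W ⊔ C) := hY.to_le (sup_le hWY inf_le_left)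
  have hCW : C ≤ normalizer (W : Set S) :=
    inf_le_left.trans CfsgLib.CoprimeAction.self_le_normalizer_commutator
  have hcent := le_centralizer_type hH hHW hWH hT hWC hCW inf_le_right
  have hCleW : C ≤ W := by
    intro c hc
    by_contra hcW
    have hp : IsPGroup 2 ↥(W ⊔ Subgroup.zpowers c) := hWC.to_le (sup_le_sup_left (zpowers_le.2 hc) _)
    have hle : W ⊔ Subgroup.zpowers c ≤ Y := sup_le hWY (zpowers_le.2 hc.1)
    rcases hT with h | h
    · exact hgood ((bad_of_central_t4 h (hcent hc) hcW hp).mono hle)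
    · exact hgood ((bad_of_central_t8 h (hcent hc) hcW hp).mono hle)
  have hWeq : W = Y := le_antisymm hWY
    ((CfsgLib.CoprimeAction.commutator_sup_centralizer hHY (cop hH hY) (Or.inr (solv hY))).symm.le.trans
      (sup_le le_rfl hCleW))
  exact ⟨hWeq, hWeq ▸ hT⟩

/-- Centralizers of elements have index at most two when commutators lie in a central subgroup of order 2. -/
theorem card_le_two_mul {M Z : Subgroup S} {g : S} (hZ : Nat.card Z ≤ 2) (hgZ : ∀ z ∈ Z, z * g = g * z)
    (hm : ∀ m ∈ M, ⁅g, m⁆ ∈ Z) (hMZ : ∀ z ∈ Z, ∀ m ∈ M, z * m = m * z) :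
    Nat.card M ≤ 2 * Nat.card ↥(M ⊓ centralizer ({g} : Set S)) := by
  classical
  set C := M ⊓ centralizer ({g} : Set S) with hC
  have hinj : Function.Injective (fun q : M ⧸ C.subgroupOf M => (⟨⁅g, (q.out : S)⁆, hm _ q.out.2⟩ : Z)) := by
    intro a b hab
    have e : ⁅g, (a.out : S)⁆ = ⁅g, (b.out : S)⁆ := congrArg Subtype.val hab
    rw [← QuotientGroup.out_eq' a, ← QuotientGroup.out_eq' b, QuotientGroup.eq, mem_subgroupOf]
    refine ⟨(a.out⁻¹ * b.out).2, mem_centralizer_singleton.2 ?_⟩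
    set m := (a.out : S) with hm'
    set m' := (b.out : S) with hm''
    show g * (m⁻¹ * m') = m⁻¹ * m' * g
    set z := ⁅g, m⁆ with hz
    have hzZ : z ∈ Z := hm _ a.out.2
    have h1 : g * m * g⁻¹ = z * m := by rw [hz, commutatorElement_def]; group
    have h2 : g * m' * g⁻¹ = z * m' := by rw [e, commutatorElement_def]; group
    calc g * (m⁻¹ * m') = (g * m * g⁻¹)⁻¹ * (g * m' * g⁻¹) * g := by group
      _ = (z * m)⁻¹ * (z * m') * g := by rw [h1, h2]
      _ = m⁻¹ * m' * g := by group
  have h := Nat.card_le_card_of_injective _ hinj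
  have h2 := Subgroup.card_mul_index (C.subgroupOf M)
  rw [Nat.card_congr (Subgroup.subgroupOfEquivOfLe (inf_le_left : C ≤ M)).toEquiv, Subgroup.index] at h2
  calc Nat.card M = Nat.card C * Nat.card (M ⧸ C.subgroupOf M) := h2.symm
    _ ≤ Nat.card C * 2 := Nat.mul_le_mul_left _ (h.trans hZ)
    _ = 2 * Nat.card C := mul_comm _ _

theorem card_sup_le_four {Z : Subgroup S} {x : S} (hZ : Nat.card Z = 2) (hx2 : x ^ 2 ∈ Z)
    (hxn : Subgroup.zpowers x ≤ normalizer (Z : Set S)) :
    Nat.card ↥(Subgroup.zpowers x ⊔ Z) ≤ 4 := by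
  have h := CfsgLib.ZJ.card_sup_mul_card_inf_of_le_normalizer hxn
  rw [Nat.card_zpowers, hZ] at h
  have hx4 : x ^ 4 = 1 := by
    have := Subgroup.orderOf_dvd_natCard Z hx2
    rw [hZ, orderOf_dvd_iff_pow_eq_one, ← pow_mul] at this
    exact this
  by_cases h2 : x ^ 2 = 1
  · have ho : orderOf x ≤ 2 := orderOf_le_of_pow_eq_one two_pos h2
    calc Nat.card ↥(Subgroup.zpowers x ⊔ Z) ≤ Nat.card ↥(Subgroup.zpowers x ⊔ Z) * Nat.card ↥(Subgroup.zpowers x ⊓ Z) :=
          Nat.le_mul_of_pos_right _ Nat.card_pos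
      _ = orderOf x * 2 := h
      _ ≤ 4 := by omega
  · have ho : orderOf x ≤ 4 := orderOf_le_of_pow_eq_one (by norm_num) hx4
    have hmem : x ^ 2 ∈ Subgroup.zpowers x ⊓ Z := ⟨pow_mem (mem_zpowers x) 2, hx2⟩
    have : 2 ≤ Nat.card ↥(Subgroup.zpowers x ⊓ Z) := by
      haveI : Nontrivial ↥(Subgroup.zpowers x ⊓ Z) :=
        ⟨⟨⟨_, hmem⟩, 1, fun e => h2 (congrArg Subtype.val e)⟩⟩
      exact Finite.one_lt_card
    nlinarith

/-- The conclusion of the analysis of `P = [P, H]`. -/
structure Special2 (P : Subgroup S) : Prop where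
  nc : ¬ ∀ x ∈ P, ∀ y ∈ P, x * y = y * x
  derived : ⁅P, P⁆ = P ⊓ centralizer (P : Set S)
  frat : (frattini P).map P.subtype = P ⊓ centralizer (P : Set S)
  sq : ∀ x ∈ P, x ^ 2 ∈ P ⊓ centralizer (P : Set S)
  zsq : ∀ z ∈ P ⊓ centralizer (P : Set S), z ^ 2 = 1
  zcard : Nat.card ↥(P ⊓ centralizer (P : Set S)) = 2 ∨ Nat.card ↥(P ⊓ centralizer (P : Set S)) = 4

theorem core {P H : Subgroup S} (hH : Odd (Nat.card H)) (hP : IsPGroup 2 P)
    (hHP : H ≤ normalizer (P : Set S)) (hPH : ⁅P, H⁆ = P)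
    (hgood : ∀ Y : Subgroup S, Y < P → H ≤ normalizer (Y : Set S) → ¬ Bad Y)
    (hcls : ∀ W : Subgroup S, W < P → H ≤ normalizer (W : Set S) → ⁅W, H⁆ = W → W ≠ ⊥ → ¬ Bad W → T4 W ∨ T8 W) :
    (∀ x ∈ P, ∀ y ∈ P, x * y = y * x) ∨ Special2 P := by
  by_cases hnc : ∀ x ∈ P, ∀ y ∈ P, x * y = y * x
  · exact Or.inl hnc
  right
  haveI := Fact.mk Nat.prime_two
  set Z := P ⊓ centralizer (P : Set S) with hZdef
  set F := (frattini P).map P.subtype with hFdef
  have hPne : Nontrivial P := by
    by_contra h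
    rw [not_nontrivial_iff_subsingleton] at h
    exact hnc fun x hx y hy => congrArg Subtype.val (Subsingleton.elim ((⟨x, hx⟩ : P) * ⟨y, hy⟩) (⟨y, hy⟩ * ⟨x, hx⟩))
  have hFP : F < P := by
    refine lt_of_le_of_ne (map_subtype_le _) fun h => ?_
    obtain hbot | ⟨M, hM, -⟩ := eq_top_or_exists_le_coatom (⊥ : Subgroup P)
    · exact bot_ne_top hbot
    · have h1 : frattini P = ⊤ := map_injective P.subtype_injective
        (by rw [← hFdef, h, ← MonoidHom.range_eq_map, range_subtype])
      exact hM.1 (top_le_iff.1 (h1 ▸ frattini_le_coatom hM))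
  have hNF : normalizer (P : Set S) ≤ normalizer (F : Set S) :=
    CfsgLib.BenderUnique.normalizer_le_normalizer_map P (frattini P)
  have hPF : P ≤ normalizer (F : Set S) := le_normalizer.trans hNF
  have hHF : H ≤ normalizer (F : Set S) := hHP.trans hNF
  have hDF : ⁅P, P⁆ ≤ F := by
    have := Subgroup.map_mono (f := P.subtype) (CfsgLib.CoprimeAction.commutator_le_frattini' hP)
    rwa [_root_.commutator_def, map_commutator, ← MonoidHom.range_eq_map, range_subtype] at this
  have hsqF : ∀ x ∈ P, x ^ 2 ∈ F := fun x hx =>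
    ⟨(⟨x, hx⟩ : P) ^ 2, CfsgLib.CoprimeAction.pow_mem_frattini hP _, rfl⟩
  have hFc : F ≤ centralizer (P : Set S) := by
    by_cases hFH : ⁅F, H⁆ = ⊥
    · rw [← commutator_eq_bot_iff_le_centralizer, Subgroup.commutator_comm]
      rw [show P = ⁅P, H⁆ from hPH.symm]
      refine commutator_commutator_eq_bot_of_rotate ?_ ?_
      · rw [Subgroup.commutator_comm H F, hFH, commutator_bot_left]
      · exact le_bot_iff.1 ((commutator_mono (CfsgLib.CoprimeAction.commutator_le_of_normalizer hPF) le_rfl).trans hFH.le)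
    · obtain ⟨hFeq, hT⟩ := good_eq hH (hP.to_le hFP.le) hHF (hgood F hFP hHF) hFH
        (fun W hW => hcls W (lt_of_le_of_lt hW hFP))
      obtain ⟨Z', hZ'F, hZ'c, hZ', hcard, hHZ'⟩ := exists_data hHF hT
      have hFP' : IsPGroup 2 ↥(F ⊔ P) := hP.to_le (sup_le hFP.le le_rfl)
      have hle : ⁅F, P⁆ ≤ Z' := commutator_le_center hH hHF hFeq hZ'F hZ'c hZ' hcard hHZ' hFP' hPF hHP
      rcases hT with hT | hT
      · have : Z' = ⊥ := card_eq_one.1 (by have := hT.card; rw [hcard] at this; omega)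
        rw [this, le_bot_iff, commutator_eq_bot_iff_le_centralizer] at hle
        exact hle
      · -- `Φ(P)` would centralize `F`
        exfalso
        have hZ'2 : Nat.card Z' = 2 := by have := hT.card; rw [hcard] at this; omega
        have hPZ' : ∀ z ∈ Z', ∀ g ∈ P, z * g = g * z := by
          have hn : P ≤ normalizer (Z' : Set S) := by
            rw [← hZ']
            intro g hg
            rw [mem_normalizer_iff_map_conj_eq, map_commutator, mem_normalizer_iff_map_conj_eq.1 (hPF hg)]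
          have := centralizes_card_two hn hZ'2.le
          exact fun z hz g hg => mem_centralizer_iff.1 (this hg) z hz
        haveI hN : ((centralizer (F : Set S)).subgroupOf P).Normal := by
          refine ⟨fun n hn g => ?_⟩
          rw [mem_subgroupOf, mem_centralizer_iff] at hn ⊢
          intro e he
          have := hn _ (CfsgLib.CoprimeAction.conj_mem hPF (inv_mem g.2) he)
          rw [coe_mul, coe_mul, coe_inv]
          calc e * (↑g * ↑n * (↑g)⁻¹) = ↑g * (((g : S)⁻¹ * e * (g : S)⁻¹⁻¹) * ↑n) * (↑g)⁻¹ := by group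
            _ = ↑g * (↑n * ((g : S)⁻¹ * e * (g : S)⁻¹⁻¹)) * (↑g)⁻¹ := by rw [this]
            _ = ↑g * ↑n * (↑g)⁻¹ * e := by group
        -- the map `g ↦ [e, g]`
        have hmul : ∀ e ∈ F, ∀ a ∈ P, ∀ b ∈ P, ⁅e, a * b⁆ = ⁅e, a⁆ * ⁅e, b⁆ := by
          intro e he a ha b hb
          have hzb := hPZ' _ (hle (commutator_mem_commutator he hb)) a ha
          calc ⁅e, a * b⁆ = ⁅e, a⁆ * (a * ⁅e, b⁆ * a⁻¹) := by simp only [commutatorElement_def]; group
            _ = ⁅e, a⁆ * ⁅e, b⁆ := by rw [← hzb, mul_inv_cancel_right]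
        have hz2 : ∀ z ∈ Z', z * z = 1 := by
          intro z hz
          have := Subgroup.orderOf_dvd_natCard Z' hz
          rw [hZ'2, orderOf_dvd_iff_pow_eq_one, pow_two] at this
          exact this
        have hzc : ∀ z ∈ Z', ∀ w ∈ Z', z * w = w * z := fun z hz w hw => hZ'c z hz w (hZ'F hw)
        have hfr : frattini P ≤ (centralizer (F : Set S)).subgroupOf P := by
          refine CfsgLib.CoprimeAction.frattini_le_of_elementary (p := 2) _ ?_ fun x => ?_
          · rw [_root_.commutator_def, commutator_le]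
            intro a _ b _
            rw [mem_subgroupOf, mem_centralizer_iff]
            intro e he
            rw [← commutatorElement_eq_one_iff_mul_comm]
            have hA := hle (commutator_mem_commutator he a.2)
            have hB := hle (commutator_mem_commutator he b.2)
            have hAi := hle (commutator_mem_commutator he (inv_mem a.2))
            have hBi := hle (commutator_mem_commutator he (inv_mem b.2))
            have ea : ⁅e, (a : S)⁆ * ⁅e, (a : S)⁻¹⁆ = 1 := by
              rw [← hmul e he _ a.2 _ (inv_mem a.2), mul_inv_cancel]; simp [commutatorElement_def]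
            have eb : ⁅e, (b : S)⁆ * ⁅e, (b : S)⁻¹⁆ = 1 := by
              rw [← hmul e he _ b.2 _ (inv_mem b.2), mul_inv_cancel]; simp [commutatorElement_def]
            have e1 : ((⁅a, b⁆ : P) : S) = (a : S) * b * (a : S)⁻¹ * (b : S)⁻¹ := by
              simp [commutatorElement_def]
            rw [e1, hmul e he _ (mul_mem (mul_mem a.2 b.2) (inv_mem a.2)) _ (inv_mem b.2),
              hmul e he _ (mul_mem a.2 b.2) _ (inv_mem a.2), hmul e he _ a.2 _ b.2]
            rw [mul_assoc ⁅e, (a : S)⁆, hzc _ hB _ hAi, ← mul_assoc, ea, one_mul, eb]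
          · rw [mem_subgroupOf, mem_centralizer_iff]
            intro e he
            rw [← commutatorElement_eq_one_iff_mul_comm, coe_pow, pow_two, hmul e he _ x.2 _ x.2]
            exact hz2 _ (hle (commutator_mem_commutator he x.2))
        have hFF : F ≤ centralizer (F : Set S) := by
          rintro _ ⟨x, hx, rfl⟩; exact hfr hx
        have h3 := hT.zcard
        rw [inf_eq_left.2 hFF, hT.card] at h3
        norm_num at h3
  have hFZ : F ≤ Z := le_inf hFP.le hFc
  have hDZ : ⁅P, P⁆ ≤ Z := hDF.trans hFZ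
  have hD1 : ∀ d ∈ ⁅P, P⁆, d ^ 2 = 1 := by
    have hle : ⁅P, P⁆ ≤ (({ carrier := {z | z ∈ Z ∧ z ^ 2 = 1}
                            one_mem' := ⟨one_mem _, one_pow 2⟩
                            mul_mem' := fun {a b} ha hb => ⟨mul_mem ha.1 hb.1, by
                              rw [(show Commute a b from (mem_centralizer_iff.1 hb.1.2 a ha.1.1)).mul_pow, ha.2, hb.2, one_mul]⟩
                            inv_mem' := fun {a} ha => ⟨inv_mem ha.1, by rw [inv_pow, ha.2, inv_one]⟩ } : Subgroup S)) := by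
      rw [commutator_le]
      intro x hx y hy
      have hc : ⁅x, y⁆ ∈ Z := hDZ (commutator_mem_commutator hx hy)
      refine ⟨hc, ?_⟩
      have h1 : Commute x ⁅x, y⁆ := mem_centralizer_iff.1 hc.2 x hx
      have h2 : ⁅x ^ 2, y⁆ = 1 :=
        commutatorElement_eq_one_iff_mul_comm.2 (mem_centralizer_iff.1 (hFc (hsqF x hx)) y hy).symm
      rw [← h2, pow_two, pow_two]
      symm
      calc ⁅x * x, y⁆ = x * ⁅x, y⁆ * x⁻¹ * ⁅x, y⁆ := by simp only [commutatorElement_def]; group
        _ = ⁅x, y⁆ * ⁅x, y⁆ := by rw [h1.eq, mul_inv_cancel_right]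
    exact fun d hd => (hle hd).2
  have hPD : P ≤ normalizer ((⁅P, P⁆ : Subgroup S) : Set S) := CfsgLib.CoprimeAction.self_le_normalizer_commutator
  have hfix : P ⊓ centralizer (H : Set S) ≤ ⁅P, P⁆ := fixed_le hH hP hHP hPH hPD le_rfl
  have hDne : ⁅P, P⁆ ≠ ⊥ := by
    intro h
    rw [commutator_eq_bot_iff_le_centralizer] at h
    exact hnc fun x hx y hy => mem_centralizer_iff.1 (h hy) x hx
  have hDne1 : 1 < Nat.card ↥⁅P, P⁆ := one_lt_card_iff_ne_bot _ |>.2 hDne
  have hZP : Z < P := by
    refine lt_of_le_of_ne inf_le_left fun h => hnc fun x hx y hy => ?_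
    exact mem_centralizer_iff.1 (h.symm.le hy).2 x hx
  have hHZ : H ≤ normalizer (Z : Set S) := by
    intro x hx
    rw [mem_normalizer_iff]
    have key : ∀ x ∈ H, ∀ z ∈ Z, x * z * x⁻¹ ∈ Z := by
      intro x hx z hz
      refine ⟨CfsgLib.CoprimeAction.conj_mem hHP hx hz.1, mem_centralizer_iff.2 fun w hw => ?_⟩
      have h1 := mem_centralizer_iff.1 hz.2 _ (CfsgLib.CoprimeAction.conj_mem hHP (inv_mem hx) hw)
      calc w * (x * z * x⁻¹) = x * ((x⁻¹ * w * x⁻¹⁻¹) * z) * x⁻¹ := by group
        _ = x * (z * (x⁻¹ * w * x⁻¹⁻¹)) * x⁻¹ := by rw [h1]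
        _ = x * z * x⁻¹ * w := by group
    exact fun z => ⟨key x hx z, fun hz => by simpa [mul_assoc] using key x⁻¹ (inv_mem hx) _ hz⟩
  have hgZ := hgood Z hZP hHZ
  have hZcomm : ∀ x ∈ Z, ∀ y ∈ Z, x * y = y * x := fun x hx y hy => mem_centralizer_iff.1 hy.2 x hx.1
  have hkey : ⁅P, P⁆ = Z ∧ (Nat.card Z = 2 ∨ Nat.card Z = 4) := by
    by_cases hZH : ⁅Z, H⁆ = ⊥
    · have hle : Z ≤ P ⊓ centralizer (H : Set S) :=
        le_inf inf_le_left (commutator_eq_bot_iff_le_centralizer.1 hZH)
      have heq : ⁅P, P⁆ = Z := le_antisymm hDZ (hle.trans hfix)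
      refine ⟨heq, ?_⟩
      rw [heq] at hDne1 hD1
      obtain ⟨k, hk⟩ := IsPGroup.iff_card.1 (hP.to_le hZP.le)
      rcases Nat.lt_or_ge k 3 with h | h
      · interval_cases k <;> simp_all
      · exfalso
        have h8 : 8 ≤ Nat.card Z := by rw [hk]; exact le_trans (by norm_num) (Nat.pow_le_pow_right two_pos h)
        have hncy : ¬ IsCyclic Z := by
          intro hc
          obtain ⟨g, hg⟩ := IsCyclic.exists_ofOrder_eq_natCard (α := Z)
          have h2 : g ^ 2 = 1 := Subtype.ext (by simpa using hD1 g g.2)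
          have := Nat.le_of_dvd two_pos (orderOf_dvd_of_pow_eq_one h2)
          omega
        obtain ⟨u, hu, v, hv, huv, hu1, hv1, hu2, hv2⟩ := two_involutions (hP.to_le hZP.le) hZcomm hncy
        exact hgZ (bad_of_comm (hP.to_le hZP.le) hZcomm h8 hu hv huv hu1 hv1 hu2 hv2)
    · obtain ⟨hZeq, hT⟩ := good_eq hH (hP.to_le hZP.le) hHZ hgZ hZH (fun W hW => hcls W (lt_of_le_of_lt hW hZP))
      have hZ4 : Nat.card Z = 4 := by
        rcases hT with hT | hT
        · exact hT.card
        · have h3 := hT.zcard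
          rw [inf_eq_left.2 (fun x hx => mem_centralizer_iff.2 fun y hy => hZcomm y hy x hx), hT.card] at h3
          norm_num at h3
      refine ⟨le_antisymm hDZ ?_, Or.inr hZ4⟩
      by_contra hnot
      have hlt : Nat.card ↥⁅P, P⁆ ≤ 2 := by
        have hdvd : Nat.card ↥⁅P, P⁆ ∣ 4 := hZ4 ▸ card_dvd_of_le hDZ
        have hne : Nat.card ↥⁅P, P⁆ ≠ 4 := fun e => hnot (eq_of_le_of_card_ge hDZ (by rw [hZ4, e])).ge
        have hle4 := Nat.le_of_dvd (by norm_num) hdvd
        interval_cases h : Nat.card ↥⁅P, P⁆ <;> omega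
      have hHD : H ≤ normalizer ((⁅P, P⁆ : Subgroup S) : Set S) := by
        intro g hg
        rw [mem_normalizer_iff_map_conj_eq, map_commutator, mem_normalizer_iff_map_conj_eq.1 (hHP hg)]
      have hcen := centralizes_card_two hHD hlt
      have hbot : Z ⊓ centralizer (H : Set S) ≤ ⊥ := fixed_le hH (hP.to_le hZP.le) hHZ hZeq
        (fun z _ => mem_normalizer_iff.2 fun y => by simp)
        (by
          rw [le_bot_iff, commutator_eq_bot_iff_le_centralizer]
          exact fun x hx => mem_centralizer_iff.2 fun y hy => hZcomm y hy x hx)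
      exact hDne (le_bot_iff.1 ((le_inf hDZ (le_centralizer_iff.1 hcen)).trans hbot))
  refine ⟨hnc, hkey.1, le_antisymm hFZ (hkey.1.symm.le.trans hDF), fun x hx => hFZ (hsqF x hx), ?_, hkey.2⟩
  intro z hz
  exact hD1 z (hkey.1.symm.le hz)

/-- An extraspecial-like `P` of order 8 is of quaternion type. -/
theorem t8_of_card {P H : Subgroup S} (hH : Odd (Nat.card H)) (hP : IsPGroup 2 P)
    (hHP : H ≤ normalizer (P : Set S)) (hPH : ⁅P, H⁆ = P) (hs : Special2 P)
    (hz : Nat.card ↥(P ⊓ centralizer (P : Set S)) = 2) (h8 : Nat.card P = 8) : T8 P := by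
  set Z := P ⊓ centralizer (P : Set S) with hZ
  refine ⟨h8, hz, hs.sq, fun x hx hx2 => ?_⟩
  by_contra hxZ
  have hPD : P ≤ normalizer ((⁅P, P⁆ : Subgroup S) : Set S) := CfsgLib.CoprimeAction.self_le_normalizer_commutator
  have hfix : P ⊓ centralizer (H : Set S) ≤ Z := (fixed_le hH hP hHP hPH hPD le_rfl).trans hs.derived.le
  have hHZ : H ≤ centralizer (Z : Set S) := by
    refine centralizes_card_two ?_ hz.le
    rw [hZ, ← hs.derived]
    intro g hg
    rw [mem_normalizer_iff_map_conj_eq, map_commutator, mem_normalizer_iff_map_conj_eq.1 (hHP hg)]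
  have hZn : ∀ u ∈ P, Subgroup.zpowers u ≤ normalizer (Z : Set S) := fun u hu => by
    refine (zpowers_le.2 ?_).trans (centralizer_le_normalizer _)
    exact mem_centralizer_iff.2 fun z hz => (mem_centralizer_iff.1 hz.2 u hu).symm
  -- the subgroup of order four over `u`
  have hU : ∀ u ∈ P, u ∉ Z → Nat.card ↥(Subgroup.zpowers u ⊔ Z) = 2 * Nat.card Z := by
    intro u hu huZ
    have h1 := card_sup_le_four hz (hs.sq u hu) (hZn u hu)
    have h2 : Nat.card Z ∣ Nat.card ↥(Subgroup.zpowers u ⊔ Z) := card_dvd_of_le le_sup_right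
    have h3 : Nat.card Z ≠ Nat.card ↥(Subgroup.zpowers u ⊔ Z) := fun e =>
      huZ ((eq_of_le_of_card_ge (le_sup_right : Z ≤ Subgroup.zpowers u ⊔ Z) e.ge).symm.le (mem_sup_left (mem_zpowers u)))
    obtain ⟨m, hm⟩ := h2
    rw [hz] at hm h3 ⊢
    have : 0 < Nat.card ↥(Subgroup.zpowers u ⊔ Z) := Nat.card_pos
    omega
  -- a non-fixed coset
  have hmove : ∀ u ∈ P, u ∉ Z → ∃ h ∈ H, u⁻¹ * (h * u * h⁻¹) ∉ Z := by
    intro u hu huZ
    by_contra hall
    push Not at hall
    set U := Subgroup.zpowers u ⊔ Z with hUdef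
    have hUP : U ≤ P := sup_le (zpowers_le.2 hu) inf_le_left
    have hHU : H ≤ normalizer (U : Set S) := by
      intro h hh
      rw [mem_normalizer_iff_map_conj_eq]
      refine eq_of_le_of_card_ge ?_ (le_of_eq (card_map_of_injective (MulEquiv.injective _)).symm)
      rw [hUdef, Subgroup.map_sup]
      refine sup_le ?_ ?_
      · rw [MonoidHom.map_zpowers, zpowers_le]
        show h * u * h⁻¹ ∈ _
        rw [show h * u * h⁻¹ = u * (u⁻¹ * (h * u * h⁻¹)) by group]
        exact mul_mem (mem_sup_left (mem_zpowers u)) (mem_sup_right (hall h hh))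
      · rintro _ ⟨z, hz', rfl⟩
        refine mem_sup_right ?_
        show h * z * h⁻¹ ∈ Z
        rw [← mem_centralizer_iff.1 (hHZ hh) z hz', mul_inv_cancel_right]
        exact hz'
    have hc := centralizes_index_two hH (hP.to_le hUP) le_sup_right (hU u hu huZ) hHU hHZ
    exact huZ (hfix ⟨hu, (le_centralizer_iff.1 hc) (mem_sup_left (mem_zpowers u))⟩)
  obtain ⟨h, hh, hy⟩ := hmove x hx hxZ
  set y := h * x * h⁻¹ with hydef
  have hyP : y ∈ P := CfsgLib.CoprimeAction.conj_mem hHP hh hx
  have hy2 : y ^ 2 = 1 := by rw [hydef, conj_pow, hx2, mul_one, mul_inv_cancel]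
  have hxi : x⁻¹ = x := inv_eq_iff_mul_eq_one.2 (by rw [← pow_two]; exact hx2)
  rw [hxi] at hy
  set U := Subgroup.zpowers x ⊔ Z with hUdef
  have hUc := hU x hx hxZ
  have hyU : y ∉ U := by
    intro hyU
    by_cases hyZ : y ∈ Z
    · refine hxZ ?_
      have := mem_centralizer_iff.1 (hHZ (inv_mem hh)) y hyZ
      have e : x = h⁻¹ * y * h := by rw [hydef]; group
      rw [e, ← this, mul_assoc, inv_mul_cancel, mul_one]
      exact hyZ
    · refine hy ?_
      have := coset_two le_sup_right hUc (mem_sup_left (mem_zpowers x)) hxZ hyU hyZ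
      rwa [hxi] at this
  set w := x * y with hwdef
  have hwP : w ∈ P := mul_mem hx hyP
  by_cases hcom : x * y = y * x
  · refine hs.nc ?_
    set M := U ⊔ Subgroup.zpowers y with hMdef
    have hcU : ∀ a ∈ U, ∀ b ∈ U, a * b = b * a := by
      rw [hUdef, sup_comm]
      exact sup_zpowers_comm (fun a ha b hb => mem_centralizer_iff.1 hb.2 a ha.1)
        (mem_centralizer_iff.2 fun z hz' => (mem_centralizer_iff.1 hz'.2 x hx).symm)
    have hyc : y ∈ centralizer (U : Set S) := by
      have : U ≤ centralizer ({y} : Set S) := sup_le (zpowers_le.2 (mem_centralizer_singleton.2 hcom.symm))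
        (fun z hz' => mem_centralizer_singleton.2 (mem_centralizer_iff.1 hz'.2 y hyP))
      exact mem_centralizer_iff.2 fun a ha => (mem_centralizer_singleton.1 (this ha)).symm
    have hMc := sup_zpowers_comm hcU hyc
    have hMP : M ≤ P := sup_le (sup_le (zpowers_le.2 hx) inf_le_left) (zpowers_le.2 hyP)
    have hM4 := card_lt_sup hyU
    rw [hUc, hz] at hM4
    have hM8 := eight_le (hP.to_le hMP) hM4
    have hMeq : M = P := eq_of_le_of_card_ge hMP (by rw [h8]; exact hM8)
    rw [← hMeq]; exact hMc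
  -- `w` has order four and its coset is invariant
  have hw2 : w ^ 2 ≠ 1 := by
    intro e
    apply hcom
    have hyi : y⁻¹ = y := inv_eq_iff_mul_eq_one.2 (by rw [← pow_two]; exact hy2)
    have hwi : w⁻¹ = w := inv_eq_iff_mul_eq_one.2 (by rw [← pow_two]; exact e)
    rw [hwdef, mul_inv_rev, hxi, hyi] at hwi
    exact hwi.symm
  have hwZ : w ∉ Z := fun h' => hw2 (hs.zsq w h')
  have hsq1 : ∀ g ∈ P, ∀ z ∈ Z, g ^ 2 = 1 → (g * z) ^ 2 = 1 := by
    intro g hg z hz' e
    rw [(show Commute g z from mem_centralizer_iff.1 hz'.2 g hg).mul_pow, e, hs.zsq z hz', mul_one]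
  have hXeq : ∀ a ∈ U, a ∈ Z ∨ x⁻¹ * a ∈ Z := fun a ha =>
    or_iff_not_imp_left.2 (coset_two le_sup_right hUc (mem_sup_left (mem_zpowers x)) hxZ ha)
  have hPU : Nat.card P = 2 * Nat.card U := by rw [hUc, hz, h8]
  obtain ⟨k, hk, hkw⟩ := hmove w hwP hwZ
  set g := k * w * k⁻¹ with hgdef
  have hgP : g ∈ P := CfsgLib.CoprimeAction.conj_mem hHP hk hwP
  have hg2 : g ^ 2 ≠ 1 := fun e => hw2 (by rw [hgdef, conj_pow] at e; simpa using e)
  have hgU : g ∉ U := by
    intro hgU
    rcases hXeq g hgU with hz' | hz'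
    · exact hg2 (hs.zsq g hz')
    · have := hsq1 x hx _ hz' hx2
      rw [mul_inv_cancel_left] at this
      exact hg2 this
  have hm := coset_two (Z := U) (U := P) (sup_le (zpowers_le.2 hx) inf_le_left) hPU hyP hyU hgP hgU
  rcases hXeq _ hm with hz' | hz'
  · have := hsq1 y hyP _ hz' hy2
    rw [mul_inv_cancel_left] at this
    exact hg2 this
  · -- `g ∈ y x Z = w Z`
    refine hkw ?_
    set t := x⁻¹ * (y⁻¹ * g) with htdef
    have e : g = y * x * t := by rw [htdef]; group
    have hd : w⁻¹ * (y * x) ∈ Z := by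
      rw [hZ, ← hs.derived]
      have : w⁻¹ * (y * x) = ⁅y⁻¹, x⁻¹⁆ := by rw [hwdef, commutatorElement_def]; group
      rw [this]
      exact commutator_mem_commutator (inv_mem hyP) (inv_mem hx)
    rw [e, show w⁻¹ * (y * x * t) = (w⁻¹ * (y * x)) * t by group]
    exact mul_mem hd hz'

/-- A good `P = [P, H]` is a four-group or a quaternion group of order 8. -/
theorem classify {H : Subgroup S} (hH : Odd (Nat.card H)) : ∀ (n : ℕ) (P : Subgroup S), Nat.card P = n →
    IsPGroup 2 P → H ≤ normalizer (P : Set S) → ⁅P, H⁆ = P → P ≠ ⊥ → ¬ Bad P → T4 P ∨ T8 P := by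
  intro n
  induction n using Nat.strong_induction_on with
  | _ n ih =>
  intro P hcard hP hHP hPH hne hgood
  haveI := Fact.mk Nat.prime_two
  rcases core hH hP hHP hPH (fun Y hY _ hb => hgood (hb.mono hY.le)) (fun W hW hHW hWH hWne hWg =>
      ih _ (hcard ▸ lt_of_le_of_ne (Nat.le_of_dvd Nat.card_pos (card_dvd_of_le hW.le))
        (fun e => hW.ne (eq_of_le_of_card_ge hW.le e.ge))) W rfl (hP.to_le hW.le) hHW hWH hWne hWg) with hc | hs
  · left
    have hbot : P ⊓ centralizer (H : Set S) ≤ ⊥ := fixed_le hH hP hHP hPH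
      (fun z _ => mem_normalizer_iff.2 fun y => by simp)
      (by
        rw [le_bot_iff, commutator_eq_bot_iff_le_centralizer]
        exact fun x hx => mem_centralizer_iff.2 fun y hy => hc y hy x hx)
    have hncy : ¬ IsCyclic P := by
      intro hcy
      classical
      obtain ⟨u, hu⟩ := exists_prime_orderOf_dvd_card' (G := P) 2 (by
        obtain ⟨k, hk⟩ := IsPGroup.iff_card.1 hP
        rw [hk]
        refine dvd_pow_self 2 fun h0 => hne ?_
        rw [← Subgroup.card_eq_one, hk, h0, pow_zero])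
      have hu1 : (u : S) ≠ 1 := fun e => by
        rw [show u = 1 from Subtype.ext e, orderOf_one] at hu; norm_num at hu
      refine hu1 ((mem_bot).1 (hbot ⟨u.2, mem_centralizer_iff.2 fun h hh => ?_⟩))
      have hcu : h * u * h⁻¹ ∈ P := CfsgLib.CoprimeAction.conj_mem hHP hh u.2
      have h2 := CfsgLib.RankOneP.zpowers_eq_of_orderOf_eq (a := u) (b := (⟨_, hcu⟩ : P)) (by
        exact (Subgroup.orderOf_coe u).symm.trans ((MulEquiv.orderOf_eq (MulAut.conj h) (u : S)).symm.trans
          (Subgroup.orderOf_mk _ _).symm))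
      have h3 := mem_zpowers (⟨_, hcu⟩ : P)
      rw [← h2, mem_zpowers_iff_mem_range_orderOf, hu, Finset.mem_image] at h3
      obtain ⟨i, hi, he⟩ := h3
      rw [Finset.mem_range] at hi
      have he' := congrArg Subtype.val he
      simp only [Subgroup.coe_pow] at he'
      interval_cases i
      · exact absurd (by simpa using he'.symm) hu1
      · rw [pow_one] at he'
        exact mul_inv_eq_iff_eq_mul.1 he'.symm
    obtain ⟨u, hu, v, hv, huv, hu1, hv1, hu2, hv2⟩ := two_involutions hP hc hncy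
    have hlt : ¬ 8 ≤ Nat.card P := fun h8 => hgood (bad_of_comm hP hc h8 hu hv huv hu1 hv1 hu2 hv2)
    obtain ⟨k, hk⟩ := IsPGroup.iff_card.1 hP
    have hk3 : k < 3 := by
      by_contra h; exact hlt (by rw [hk]; exact le_trans (by norm_num) (Nat.pow_le_pow_right two_pos (Nat.le_of_not_lt h)))
    have hk2 : k = 2 := by
      interval_cases k
      · exact absurd (Subgroup.card_eq_one.1 (by rw [hk]; rfl)) hne
      · exact absurd (isCyclic_of_prime_card (p := 2) (by rw [hk]; rfl)) hncy
      · rfl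
    refine ⟨by rw [hk, hk2]; rfl, hc, fun x hx => ?_⟩
    have h4 : orderOf (⟨x, hx⟩ : P) ∣ 2 ^ 2 := by
      have := orderOf_dvd_natCard (⟨x, hx⟩ : P)
      rwa [hk, hk2] at this
    obtain ⟨j, hj, hj'⟩ := (Nat.dvd_prime_pow Nat.prime_two).1 h4
    rw [Subgroup.orderOf_mk] at hj'
    rw [← orderOf_dvd_iff_pow_eq_one, hj']
    rcases Nat.lt_or_ge j 2 with h | h
    · exact (pow_dvd_pow 2 (Nat.le_of_lt_succ h)).trans (by norm_num)
    · exfalso
      refine hncy (isCyclic_of_orderOf_eq_card (⟨x, hx⟩ : P) ?_)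
      rw [Subgroup.orderOf_mk, hj', hk, hk2, show j = 2 by omega]
  · right
    set Z := P ⊓ centralizer (P : Set S) with hZ
    have hZP : ∀ x ∈ P, Subgroup.zpowers x ≤ normalizer (Z : Set S) := fun u hu => by
      refine (zpowers_le.2 ?_).trans (centralizer_le_normalizer _)
      exact mem_centralizer_iff.2 fun z hz => (mem_centralizer_iff.1 hz.2 u hu).symm
    obtain ⟨x, hx, hxZ⟩ : ∃ x ∈ P, x ∉ Z := by
      by_contra h; push Not at h
      exact hs.nc fun a ha b hb => mem_centralizer_iff.1 (h b hb).2 a ha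
    have hxc : x ∈ centralizer (Z : Set S) :=
      mem_centralizer_iff.2 fun z hz => (mem_centralizer_iff.1 hz.2 x hx).symm
    have hZc : ∀ a ∈ Z, ∀ b ∈ Z, a * b = b * a := fun a ha b hb => mem_centralizer_iff.1 hb.2 a ha.1
    rcases hs.zcard with hz | hz
    swap
    · exfalso
      have hT : T4 Z := ⟨hz, hZc, hs.zsq⟩
      have hle : Z ⊔ Subgroup.zpowers x ≤ P := sup_le inf_le_left (zpowers_le.2 hx)
      exact hgood ((bad_of_central_t4 hT hxc hxZ (hP.to_le hle)).mono hle)
    · refine t8_of_card hH hP hHP hPH hs hz ?_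
      obtain ⟨k, hk⟩ := IsPGroup.iff_card.1 hP
      rcases Nat.lt_trichotomy k 3 with h | h | h
      · exfalso
        refine hs.nc ?_
        have hle : Nat.card P ≤ 4 := by rw [hk]; exact le_trans (Nat.pow_le_pow_right two_pos (Nat.le_of_lt_succ h)) (by norm_num)
        have hlt := card_lt_sup (M := Z) hxZ
        rw [hz] at hlt
        have h4 : 4 ≤ Nat.card ↥(Z ⊔ Subgroup.zpowers x) := by
          obtain ⟨m, hm⟩ : Nat.card Z ∣ Nat.card ↥(Z ⊔ Subgroup.zpowers x) := card_dvd_of_le le_sup_left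
          rw [hz] at hm
          omega
        have heq : Z ⊔ Subgroup.zpowers x = P :=
          eq_of_le_of_card_ge (sup_le inf_le_left (zpowers_le.2 hx)) (hle.trans h4)
        rw [← heq]
        exact sup_zpowers_comm hZc hxc
      · rw [hk, h]; rfl
      · exfalso
        have h16 : 16 ≤ Nat.card P := by rw [hk]; exact le_trans (by norm_num) (Nat.pow_le_pow_right two_pos h)
        have hC := card_le_two_mul (M := P) (Z := Z) (g := x) hz.le (fun z hz' => (mem_centralizer_iff.1 hz'.2 x hx).symm)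
          (fun m hm => hs.derived.le (commutator_mem_commutator hx hm))
          (fun z hz' m hm => (mem_centralizer_iff.1 hz'.2 m hm).symm)
        set C := P ⊓ centralizer ({x} : Set S) with hCdef
        set U := Subgroup.zpowers x ⊔ Z with hU
        have hU4 : Nat.card U ≤ 4 := card_sup_le_four hz (hs.sq x hx) (hZP x hx)
        obtain ⟨y, hy, hyU⟩ : ∃ y ∈ C, y ∉ U := by
          by_contra h'; push Not at h'
          have := Nat.le_of_dvd Nat.card_pos (card_dvd_of_le (show C ≤ U from h'))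
          omega
        have hUc : ∀ a ∈ U, ∀ b ∈ U, a * b = b * a := by rw [hU, sup_comm]; exact sup_zpowers_comm hZc hxc
        have hyc : y ∈ centralizer (U : Set S) := by
          have : U ≤ centralizer ({y} : Set S) := sup_le
            (zpowers_le.2 (mem_centralizer_singleton.2 (mem_centralizer_singleton.1 hy.2).symm))
            (fun z hz' => mem_centralizer_singleton.2 (mem_centralizer_iff.1 hz'.2 y hy.1))
          exact mem_centralizer_iff.2 fun a ha => (mem_centralizer_singleton.1 (this ha)).symm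
        set M := U ⊔ Subgroup.zpowers y with hM
        have hMP : M ≤ P := sup_le (sup_le (zpowers_le.2 hx) inf_le_left) (zpowers_le.2 hy.1)
        have hMc := sup_zpowers_comm hUc hyc
        have hU3 : 4 ≤ Nat.card U := by
          have hlt : Nat.card Z < Nat.card U := by rw [hU, sup_comm]; exact card_lt_sup hxZ
          obtain ⟨m, hm⟩ : Nat.card Z ∣ Nat.card U := card_dvd_of_le le_sup_right
          rw [hz] at hm hlt
          omega
        have hM8 : 8 ≤ Nat.card M := eight_le (hP.to_le hMP) (lt_of_le_of_lt hU3 (card_lt_sup hyU))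
        have hncy : ¬ IsCyclic M := by
          intro hcy
          obtain ⟨g, hg⟩ := IsCyclic.exists_ofOrder_eq_natCard (α := M)
          have h2 : g ^ 4 = 1 := by
            refine Subtype.ext ?_
            have := hs.zsq _ (hs.sq g (hMP g.2))
            rw [← pow_mul] at this
            simpa using this
          have := Nat.le_of_dvd (by norm_num) (orderOf_dvd_of_pow_eq_one h2)
          omega
        obtain ⟨u, hu, v, hv, huv, hu1, hv1, hu2, hv2⟩ := two_involutions (hP.to_le hMP) hMc hncy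
        exact hgood ((bad_of_comm (hP.to_le hMP) hMc hM8 hu hv huv hu1 hv1 hu2 hv2).mono hMP)

end CfsgLib.MinEightTwo
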